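import Cfsg.Agent.H24.Sd.Tools
import Cfsg.Agent.MTwelveType.SylowModel

/-!
# S4579: `M12` (helper24)
-/

set_option autoImplicit false

namespace Cfsg.Agent.H24.Sd

open Cfsg Cfsg.Agent.H643.Sd Cfsg.Agent.ClassificationK.GTwoModel

namespace MT

/-- the Sylow 2-subgroup of `M12` -/
abbrev T4 := T (2 * 2)

instance instDecT4 : DecidableEq T4 := fun a b =>
  decidable_of_iff (T.equivProd (2 * 2) a = T.equivProd (2 * 2) b) (T.equivProd (2 * 2)).injective.eq_iff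

theorem chk : ∀ (i j : ZMod (2 * 2)) (e d : Bool), (⟨i, j, true, false⟩ : T4) * ⟨i, j, true, false⟩ = 1 ∧
    (⟨0, 0, !e, d⟩ : T4) * ⟨0, 0, !e, d⟩ = 1 ∧ (⟨i, j, e, d⟩ : T4) = ⟨i, j, true, false⟩ * ⟨0, 0, !e, d⟩ := by
  decide +kernel

theorem lin2 : Lin2 T4 := by
  apply lin2_of_prod
  rintro ⟨i, j, e, d⟩
  exact ⟨_, _, chk i j e d⟩

end MT

/-- **Row `M12` of S4579.** -/
theorem elem_m12 {G : Type*} [Group G] [Finite G] (h : Cfsg.Spor.IsoM12 G) : Elem G := by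
  obtain ⟨e⟩ := h
  refine elem_congr e.symm fun P => ?_
  obtain ⟨f⟩ := Cfsg.Agent.MTwelveType.SylowModel.exists_equiv P
  exact lin2_equiv f MT.lin2

end Cfsg.Agent.H24.Sd
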